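import Cfsg.Agent.H853.FiK.Cnt

/-!
# Counting conjugacy classes by the numbers of moved points of the powers (helper853)
-/

set_option autoImplicit false

namespace Cfsg.Agent.H853.FiK

variable {G : Type*} [Group G]

/-- the class function -/
noncomputable def inv5 (φ : G →* Equiv.Perm ℕ) (x : G) : ℕ × ℕ × ℕ × ℕ × ℕ :=
  (mv (φ x), mv (φ x ^ 2), mv (φ x ^ 3), mv (φ x ^ 4), mv (φ x ^ 6))

theorem inv5_conj (φ : G →* Equiv.Perm ℕ) {x y : G} (h : IsConj x y) : inv5 φ x = inv5 φ y := by
  obtain ⟨c, rfl⟩ := isConj_iff.1 h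
  have h1 : ∀ j : ℕ, mv ((φ (c * x * c⁻¹)) ^ j) = mv (φ x ^ j) := by
    intro j
    rw [← map_pow, conj_pow, map_mul, map_mul, map_inv, mv_conj, map_pow]
  have h2 := h1 1
  rw [pow_one, pow_one] at h2
  unfold inv5
  rw [h2, h1, h1, h1, h1]

/-- elements with pairwise different values of a class function -/
theorem card_le_of_nodup {β : Type*} [Finite G] {f : G → β} (hf : ∀ x y, IsConj x y → f x = f y)
    {l : List β} (hl : l.Nodup) (h : ∀ b ∈ l, ∃ x, f x = b) : l.length ≤ Nat.card (ConjClasses G) := by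
  classical
  have hfin : Finite (ConjClasses G) := Quotient.finite _
  let _ := Fintype.ofFinite (ConjClasses G)
  choose! x hx using h
  have h1 : l.toFinset.card ≤ (Finset.univ : Finset (ConjClasses G)).card := by
    apply Finset.card_le_card_of_injOn (fun b => ConjClasses.mk (x b)) (fun _ _ => Finset.mem_univ _)
    intro a ha b hb hab
    have ha' : a ∈ l := by simpa using ha
    have hb' : b ∈ l := by simpa using hb
    rw [← hx a ha', ← hx b hb']
    exact hf _ _ (ConjClasses.mk_eq_mk_iff_isConj.1 hab)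
  rw [List.toFinset_card_of_nodup hl, Finset.card_univ] at h1
  rwa [Nat.card_eq_fintype_card]

end Cfsg.Agent.H853.FiK
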