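import Cfsg.Agent.Lib.PermNet

/-!
# Counting the points moved by a word of networks, kernel-fast (helper853)

* `pcK k [M]` : the number of bits of `M` below `2^k` (vertical counters);
* `mv σ` : the number of points moved by `σ`;
* `chk5` : certificates for the numbers of points moved by `σ, σ², σ³, σ⁴, σ⁶`.
-/

set_option autoImplicit false

namespace Cfsg.Agent.H853.FiK

open Cfsg.Agent.Lib.PermNet

/-! ### population count -/

/-- the value of a list of bit planes at the position `i` -/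
def val (xs : List ℕ) (i : ℕ) : ℕ := xs.foldr (fun x r => (x.testBit i).toNat + 2 * r) 0

theorem val_nil (i : ℕ) : val [] i = 0 := rfl

theorem val_cons (x : ℕ) (xs : List ℕ) (i : ℕ) : val (x :: xs) i = (x.testBit i).toNat + 2 * val xs i := rfl

/-- ripple carry addition of the planes and their shifts -/
def addR (n : ℕ) : List ℕ → ℕ → List ℕ
  | [], c => [c]
  | x :: xs, c => (x ^^^ (x >>> n) ^^^ c) :: addR n xs ((x &&& (x >>> n)) ||| ((x ^^^ (x >>> n)) &&& c))

theorem val_addR (n : ℕ) (xs : List ℕ) (c i : ℕ) :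
    val (addR n xs c) i = val xs i + val xs (i + n) + (c.testBit i).toNat := by
  induction xs generalizing c with
  | nil => simp [addR, val_cons, val_nil]
  | cons x xs ih =>
    rw [addR, val_cons, ih, val_cons, val_cons]
    simp only [Nat.testBit_xor, Nat.testBit_and, Nat.testBit_or, Nat.testBit_shiftRight, Nat.add_comm n i]
    cases x.testBit i <;> cases x.testBit (i + n) <;> cases c.testBit i <;> simp <;> omega

/-- the same, in continuation passing style with forced evaluation -/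
noncomputable def addK (n : ℕ) (xs : List ℕ) : ℕ → (List ℕ → ℕ) → ℕ :=
  List.rec (motive := fun _ => ℕ → (List ℕ → ℕ) → ℕ) (fun c k => k [c])
    (fun x _ ih c k =>
      seq (Nat.shiftRight x n) fun y => seq (Nat.xor x y) fun t => seq (Nat.xor t c) fun s =>
        seq (Nat.lor (Nat.land x y) (Nat.land t c)) fun c' => ih c' fun r => k (List.cons s r)) xs

theorem addK_eq (n : ℕ) (xs : List ℕ) (c : ℕ) (k : List ℕ → ℕ) : addK n xs c k = k (addR n xs c) := by
  induction xs generalizing c k with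
  | nil => rfl
  | cons x xs ih =>
    have h : addK n (x :: xs) c k = seq (Nat.shiftRight x n) fun y => seq (Nat.xor x y) fun t =>
        seq (Nat.xor t c) fun s => seq (Nat.lor (Nat.land x y) (Nat.land t c)) fun c' =>
          addK n xs c' fun r => k (List.cons s r) := rfl
    rw [h, seq_eq, seq_eq, seq_eq, seq_eq, ih]
    rfl

/-- the sum of the values at the positions below `2^k` -/
noncomputable def pcK (k : ℕ) : List ℕ → ℕ :=
  Nat.rec (motive := fun _ => List ℕ → ℕ)
    (fun xs => List.rec (motive := fun _ => ℕ) 0 (fun x _ ih => Nat.add (Nat.land x 1) (Nat.mul 2 ih)) xs)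
    (fun j ih xs => addK (Nat.pow 2 j) xs 0 ih) k

theorem pcK_zero (xs : List ℕ) : pcK 0 xs = val xs 0 := by
  induction xs with
  | nil => rfl
  | cons x xs ih =>
    have h : pcK 0 (x :: xs) = (x &&& 1) + 2 * pcK 0 xs := rfl
    rw [h, ih, val_cons, Nat.and_one_is_mod]
    congr 1
    have h2 : x.testBit 0 = decide (x % 2 = 1) := Nat.testBit_zero x
    rw [h2]
    rcases Nat.mod_two_eq_zero_or_one x with h | h <;> rw [h] <;> rfl

theorem pcK_eq (k : ℕ) (xs : List ℕ) : pcK k xs = ∑ i ∈ Finset.range (2 ^ k), val xs i := by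
  induction k generalizing xs with
  | zero => rw [pcK_zero]; simp
  | succ k ih =>
    have h : pcK (k + 1) xs = addK (2 ^ k) xs 0 (pcK k) := rfl
    rw [h, addK_eq, ih, pow_succ, mul_two, Finset.sum_range_add]
    rw [← Finset.sum_add_distrib]
    apply Finset.sum_congr rfl
    intro i _
    rw [val_addR, Nat.zero_testBit, Nat.add_comm (2 ^ k) i]
    rfl

theorem pcK_single (k M : ℕ) : pcK k [M] = ((Finset.range (2 ^ k)).filter fun i => M.testBit i = true).card := by
  rw [pcK_eq, Finset.card_filter]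
  apply Finset.sum_congr rfl
  intro i _
  rw [val_cons, val_nil]
  cases M.testBit i <;> rfl

/-! ### moved points -/

/-- the number of points moved -/
noncomputable def mv (σ : Equiv.Perm ℕ) : ℕ := Set.ncard {p | σ p ≠ p}

theorem mv_conj (τ σ : Equiv.Perm ℕ) : mv (τ * σ * τ⁻¹) = mv σ := by
  unfold mv
  have h : {p | (τ * σ * τ⁻¹) p ≠ p} = τ '' {p | σ p ≠ p} := by
    ext p
    simp only [Set.mem_ofPred_eq, Set.mem_image]
    constructor
    · intro hp
      refine ⟨τ⁻¹ p, fun h => hp ?_, τ.apply_symm_apply p⟩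
      rw [Equiv.Perm.mul_apply, Equiv.Perm.mul_apply, h]
      exact τ.apply_symm_apply p
    · rintro ⟨q, hq, rfl⟩ h
      rw [Equiv.Perm.mul_apply, Equiv.Perm.mul_apply] at h
      have h2 : τ⁻¹ (τ q) = q := τ.symm_apply_apply q
      rw [h2] at h
      exact hq (τ.injective h)
  rw [h, Set.ncard_image_of_injective _ τ.injective]

theorem mv_of_mask {k : ℕ} {σ : Equiv.Perm ℕ} (h1 : ∀ p, 2 ^ k ≤ p → σ p = p) {M : ℕ}
    (hM : ∀ p < 2 ^ k, M.testBit p = true ↔ σ p ≠ p) : mv σ = pcK k [M] := by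
  rw [pcK_single, mv, ← Set.ncard_coe_finset]
  congr 1
  ext p
  simp only [Set.mem_ofPred_eq, Finset.coe_filter, Finset.mem_range]
  constructor
  · intro hp
    have : p < 2 ^ k := by
      by_contra h
      exact hp (h1 p (by omega))
    exact ⟨this, (hM p this).2 hp⟩
  · rintro ⟨h, hp⟩
    exact (hM p h).1 hp

/-! ### the certificate -/

/-- the planes `P, wP, …, w⁶P`, accumulating the differences with `P` -/
noncomputable def chain (w : List Net) (P D1 D2 D3 D4 D6 : ℕ) (K : ℕ → ℕ → ℕ → ℕ → ℕ → ℕ) : ℕ :=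
  seq (appWord w P) fun P1 => seq (appWord w P1) fun P2 => seq (appWord w P2) fun P3 =>
  seq (appWord w P3) fun P4 => seq (appWord w P4) fun P5 => seq (appWord w P5) fun P6 =>
  seq (Nat.lor D1 (Nat.xor P1 P)) fun E1 => seq (Nat.lor D2 (Nat.xor P2 P)) fun E2 =>
  seq (Nat.lor D3 (Nat.xor P3 P)) fun E3 => seq (Nat.lor D4 (Nat.xor P4 P)) fun E4 =>
  seq (Nat.lor D6 (Nat.xor P6 P)) fun E6 => K E1 E2 E3 E4 E6

/-- the difference of the images of a plane under `w^j` -/
noncomputable def df (w : List Net) (j P : ℕ) : ℕ := (appWord w)^[j] P ^^^ P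

theorem chain_eq (w : List Net) (P D1 D2 D3 D4 D6 : ℕ) (K : ℕ → ℕ → ℕ → ℕ → ℕ → ℕ) :
    chain w P D1 D2 D3 D4 D6 K =
      K (D1 ||| df w 1 P) (D2 ||| df w 2 P) (D3 ||| df w 3 P) (D4 ||| df w 4 P) (D6 ||| df w 6 P) := by
  unfold chain
  simp only [seq_eq]
  rfl

/-- all planes `b < m` -/
noncomputable def chains (k : ℕ) (w : List Net) (m : ℕ) :
    ℕ → ℕ → ℕ → ℕ → ℕ → (ℕ → ℕ → ℕ → ℕ → ℕ → ℕ) → ℕ :=
  Nat.rec (motive := fun _ => ℕ → ℕ → ℕ → ℕ → ℕ → (ℕ → ℕ → ℕ → ℕ → ℕ → ℕ) → ℕ)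
    (fun D1 D2 D3 D4 D6 K => K D1 D2 D3 D4 D6)
    (fun b ih D1 D2 D3 D4 D6 K => seq (plane k b) fun P => chain w P D1 D2 D3 D4 D6
      fun E1 E2 E3 E4 E6 => ih E1 E2 E3 E4 E6 K) m

/-- the union of the differences -/
noncomputable def dfs (k : ℕ) (w : List Net) (j : ℕ) : ℕ → ℕ → ℕ
  | 0, D => D
  | b + 1, D => dfs k w j b (D ||| df w j (plane k b))

theorem chains_eq (k : ℕ) (w : List Net) (m D1 D2 D3 D4 D6 : ℕ) (K : ℕ → ℕ → ℕ → ℕ → ℕ → ℕ) :
    chains k w m D1 D2 D3 D4 D6 K =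
      K (dfs k w 1 m D1) (dfs k w 2 m D2) (dfs k w 3 m D3) (dfs k w 4 m D4) (dfs k w 6 m D6) := by
  induction m generalizing D1 D2 D3 D4 D6 with
  | zero => rfl
  | succ m ih =>
    have h : chains k w (m + 1) D1 D2 D3 D4 D6 K = seq (plane k m) fun P => chain w P D1 D2 D3 D4 D6
      fun E1 E2 E3 E4 E6 => chains k w m E1 E2 E3 E4 E6 K := rfl
    rw [h, seq_eq, chain_eq, ih]
    rfl

theorem testBit_dfs (k : ℕ) (w : List Net) (j m D p : ℕ) :
    (dfs k w j m D).testBit p = true ↔ D.testBit p = true ∨ ∃ b < m, (df w j (plane k b)).testBit p = true := by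
  induction m generalizing D with
  | zero => simp [dfs]
  | succ m ih =>
    rw [dfs, ih, Nat.testBit_or, Bool.or_eq_true]
    constructor
    · rintro ((h | h) | ⟨b, hb, h⟩)
      · exact Or.inl h
      · exact Or.inr ⟨m, by omega, h⟩
      · exact Or.inr ⟨b, by omega, h⟩
    · rintro (h | ⟨b, hb, h⟩)
      · exact Or.inl (Or.inl h)
      · rcases Nat.lt_succ_iff_lt_or_eq.1 hb with hb | rfl
        · exact Or.inr ⟨b, hb, h⟩
        · exact Or.inl (Or.inr h)

theorem testBit_iterate {N : ℕ} {w : List Net} (h : WOk N w) (j P p : ℕ) :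
    ((appWord w)^[j] P).testBit p = P.testBit ((wperm w ^ j) p) := by
  induction j generalizing p with
  | zero => rfl
  | succ j ih =>
    rw [Function.iterate_succ', Function.comp_apply, testBit_appWord h, ih, pow_succ, Equiv.Perm.mul_apply]

theorem pow_lt {N : ℕ} {w : List Net} (h : WOk N w) (j : ℕ) {p : ℕ} (hp : p < N) : (wperm w ^ j) p < N := by
  induction j with
  | zero => exact hp
  | succ j ih =>
    rw [pow_succ', Equiv.Perm.mul_apply]
    exact wperm_lt h ih

theorem pow_eq {N : ℕ} {w : List Net} (h : WOk N w) (j : ℕ) {p : ℕ} (hp : N ≤ p) : (wperm w ^ j) p = p := by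
  induction j with
  | zero => rfl
  | succ j ih =>
    rw [pow_succ', Equiv.Perm.mul_apply, ih, wperm_eq_of_le h hp]

theorem mv_dfs {k : ℕ} {w : List Net} (h : WOk (2 ^ k) w) (j : ℕ) :
    mv (wperm w ^ j) = pcK k [dfs k w j k 0] := by
  apply mv_of_mask (fun p hp => pow_eq h j hp)
  intro p hp
  rw [testBit_dfs, Nat.zero_testBit]
  simp only [Bool.false_eq_true, false_or]
  have h1 : ∀ b < k, ((df w j (plane k b)).testBit p = true ↔
      ((wperm w ^ j) p).testBit b ≠ p.testBit b) := by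
    intro b hb
    rw [df, Nat.testBit_xor, testBit_iterate h, testBit_plane k b _ (pow_lt h j hp) hb, testBit_plane k b p hp hb]
    cases ((wperm w ^ j) p).testBit b <;> cases p.testBit b <;> simp
  constructor
  · rintro ⟨b, hb, h2⟩ h3
    exact (h1 b hb).1 h2 (by rw [h3])
  · intro h2
    by_contra hc
    push Not at hc
    apply h2
    apply Nat.eq_of_testBit_eq
    intro b
    by_cases hb : b < k
    · by_contra h4
      exact hc b hb ((h1 b hb).2 h4)
    · have hk : 2 ^ k ≤ 2 ^ b := Nat.pow_le_pow_right (by norm_num) (by omega)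
      rw [Nat.testBit_lt_two_pow (lt_of_lt_of_le (pow_lt h j hp) hk),
        Nat.testBit_lt_two_pow (lt_of_lt_of_le hp hk)]

/-- the certificate: the numbers of points moved by the powers `1, 2, 3, 4, 6` -/
noncomputable def chk5 (k : ℕ) (w : List Net) (m1 m2 m3 m4 m6 : ℕ) : Bool :=
  Nat.beq (chains k w k 0 0 0 0 0 fun E1 E2 E3 E4 E6 =>
    Bool.rec 0 1 (and (Nat.beq (pcK k [E1]) m1) (and (Nat.beq (pcK k [E2]) m2) (and (Nat.beq (pcK k [E3]) m3)
      (and (Nat.beq (pcK k [E4]) m4) (Nat.beq (pcK k [E6]) m6)))))) 1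

theorem chk5_spec {k : ℕ} {w : List Net} (hw : WOk (2 ^ k) w) {m1 m2 m3 m4 m6 : ℕ}
    (h : chk5 k w m1 m2 m3 m4 m6 = true) :
    mv (wperm w) = m1 ∧ mv (wperm w ^ 2) = m2 ∧ mv (wperm w ^ 3) = m3 ∧ mv (wperm w ^ 4) = m4 ∧
      mv (wperm w ^ 6) = m6 := by
  have h0 := Nat.eq_of_beq_eq_true h
  rw [chains_eq] at h0
  have h1 : (and (Nat.beq (pcK k [dfs k w 1 k 0]) m1) (and (Nat.beq (pcK k [dfs k w 2 k 0]) m2)
      (and (Nat.beq (pcK k [dfs k w 3 k 0]) m3)
      (and (Nat.beq (pcK k [dfs k w 4 k 0]) m4) (Nat.beq (pcK k [dfs k w 6 k 0]) m6))))) = true := by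
    revert h0
    generalize (and (Nat.beq (pcK k [dfs k w 1 k 0]) m1) (and (Nat.beq (pcK k [dfs k w 2 k 0]) m2)
      (and (Nat.beq (pcK k [dfs k w 3 k 0]) m3)
      (and (Nat.beq (pcK k [dfs k w 4 k 0]) m4) (Nat.beq (pcK k [dfs k w 6 k 0]) m6))))) = t
    cases t
    · intro h0; exact absurd h0 (by decide)
    · intro _; rfl
  rw [Bool.and_eq_true, Bool.and_eq_true, Bool.and_eq_true, Bool.and_eq_true] at h1
  obtain ⟨a1, a2, a3, a4, a6⟩ := h1
  refine ⟨?_, ?_, ?_, ?_, ?_⟩
  · rw [← Nat.eq_of_beq_eq_true a1, ← mv_dfs hw 1, pow_one]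
  · rw [← Nat.eq_of_beq_eq_true a2, ← mv_dfs hw 2]
  · rw [← Nat.eq_of_beq_eq_true a3, ← mv_dfs hw 3]
  · rw [← Nat.eq_of_beq_eq_true a4, ← mv_dfs hw 4]
  · rw [← Nat.eq_of_beq_eq_true a6, ← mv_dfs hw 6]

end Cfsg.Agent.H853.FiK
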