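import Cfsg.Agent.H853.FiK.Fi23D

/-! `Fi₂₃`: kernel checks, part 1 (helper853) -/

set_option autoImplicit false
set_option Elab.async false

namespace Cfsg.Agent.H853.FiK.Fi23

theorem L0_chk : chkAll L0 = true := by decide +kernel

theorem L4_chk : chkAll L4 = true := by decide +kernel

theorem L8_chk : chkAll L8 = true := by decide +kernel

theorem L12_chk : chkAll L12 = true := by decide +kernel

theorem L16_chk : chkAll L16 = true := by decide +kernel

theorem L20_chk : chkAll L20 = true := by decide +kernel

theorem L24_chk : chkAll L24 = true := by decide +kernel

theorem L28_chk : chkAll L28 = true := by decide +kernel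

theorem L32_chk : chkAll L32 = true := by decide +kernel

theorem L36_chk : chkAll L36 = true := by decide +kernel

theorem L40_chk : chkAll L40 = true := by decide +kernel

theorem L44_chk : chkAll L44 = true := by decide +kernel

end Cfsg.Agent.H853.FiK.Fi23
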