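import Cfsg.Agent.H853.FiK.Fi23D

/-! `Fi₂₃`: kernel checks, part 2 (helper853) -/

set_option autoImplicit false
set_option Elab.async false

namespace Cfsg.Agent.H853.FiK.Fi23

theorem L1_chk : chkAll L1 = true := by decide +kernel

theorem L5_chk : chkAll L5 = true := by decide +kernel

theorem L9_chk : chkAll L9 = true := by decide +kernel

theorem L13_chk : chkAll L13 = true := by decide +kernel

theorem L17_chk : chkAll L17 = true := by decide +kernel

theorem L21_chk : chkAll L21 = true := by decide +kernel

theorem L25_chk : chkAll L25 = true := by decide +kernel

theorem L29_chk : chkAll L29 = true := by decide +kernel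

theorem L33_chk : chkAll L33 = true := by decide +kernel

theorem L37_chk : chkAll L37 = true := by decide +kernel

theorem L41_chk : chkAll L41 = true := by decide +kernel

theorem L45_chk : chkAll L45 = true := by decide +kernel

end Cfsg.Agent.H853.FiK.Fi23
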