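import Cfsg.Agent.H853.FiK.Fi23D

/-! `Fi₂₃`: kernel checks, part 3 (helper853) -/

set_option autoImplicit false
set_option Elab.async false

namespace Cfsg.Agent.H853.FiK.Fi23

theorem L2_chk : chkAll L2 = true := by decide +kernel

theorem L6_chk : chkAll L6 = true := by decide +kernel

theorem L10_chk : chkAll L10 = true := by decide +kernel

theorem L14_chk : chkAll L14 = true := by decide +kernel

theorem L18_chk : chkAll L18 = true := by decide +kernel

theorem L22_chk : chkAll L22 = true := by decide +kernel

theorem L26_chk : chkAll L26 = true := by decide +kernel

theorem L30_chk : chkAll L30 = true := by decide +kernel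

theorem L34_chk : chkAll L34 = true := by decide +kernel

theorem L38_chk : chkAll L38 = true := by decide +kernel

theorem L42_chk : chkAll L42 = true := by decide +kernel

theorem L46_chk : chkAll L46 = true := by decide +kernel

end Cfsg.Agent.H853.FiK.Fi23
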