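import Cfsg.Agent.H853.FiK.Fi23D

/-! `Fi₂₃`: kernel checks, part 4 (helper853) -/

set_option autoImplicit false
set_option Elab.async false

namespace Cfsg.Agent.H853.FiK.Fi23

theorem L3_chk : chkAll L3 = true := by decide +kernel

theorem L7_chk : chkAll L7 = true := by decide +kernel

theorem L11_chk : chkAll L11 = true := by decide +kernel

theorem L15_chk : chkAll L15 = true := by decide +kernel

theorem L19_chk : chkAll L19 = true := by decide +kernel

theorem L23_chk : chkAll L23 = true := by decide +kernel

theorem L27_chk : chkAll L27 = true := by decide +kernel

theorem L31_chk : chkAll L31 = true := by decide +kernel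

theorem L35_chk : chkAll L35 = true := by decide +kernel

theorem L39_chk : chkAll L39 = true := by decide +kernel

theorem L43_chk : chkAll L43 = true := by decide +kernel

end Cfsg.Agent.H853.FiK.Fi23
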