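import Cfsg.Agent.H853.FiK.Fi23A1
import Cfsg.Agent.H853.FiK.Fi23A2
import Cfsg.Agent.H853.FiK.Fi23A3
import Cfsg.Agent.H853.FiK.Fi23A4

/-! `Fi₂₃`: the table of 79 words (helper853) -/

set_option autoImplicit false

namespace Cfsg.Agent.H853.FiK.Fi23

/-- all blocks of entries -/
def blocks : List (List Ent) := [L0, L1, L2, L3, L4, L5, L6, L7, L8, L9, L10, L11, L12, L13, L14, L15, L16, L17, L18, L19, L20, L21, L22, L23, L24, L25, L26, L27, L28, L29, L30, L31, L32, L33, L34, L35, L36, L37, L38, L39, L40, L41, L42, L43, L44, L45, L46]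

theorem blocks_chk : ∀ l ∈ blocks, chkAll l = true := by
  intro l hl
  simp only [blocks, List.mem_cons, List.not_mem_nil, or_false] at hl
  rcases hl with rfl | rfl | rfl | rfl | rfl | rfl | rfl | rfl | rfl | rfl | rfl | rfl | rfl | rfl | rfl | rfl | rfl | rfl | rfl | rfl | rfl | rfl | rfl | rfl | rfl | rfl | rfl | rfl | rfl | rfl | rfl | rfl | rfl | rfl | rfl | rfl | rfl | rfl | rfl | rfl | rfl | rfl | rfl | rfl | rfl | rfl | rfl
  · exact L0_chk
  · exact L1_chk
  · exact L2_chk
  · exact L3_chk
  · exact L4_chk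
  · exact L5_chk
  · exact L6_chk
  · exact L7_chk
  · exact L8_chk
  · exact L9_chk
  · exact L10_chk
  · exact L11_chk
  · exact L12_chk
  · exact L13_chk
  · exact L14_chk
  · exact L15_chk
  · exact L16_chk
  · exact L17_chk
  · exact L18_chk
  · exact L19_chk
  · exact L20_chk
  · exact L21_chk
  · exact L22_chk
  · exact L23_chk
  · exact L24_chk
  · exact L25_chk
  · exact L26_chk
  · exact L27_chk
  · exact L28_chk
  · exact L29_chk
  · exact L30_chk
  · exact L31_chk
  · exact L32_chk
  · exact L33_chk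
  · exact L34_chk
  · exact L35_chk
  · exact L36_chk
  · exact L37_chk
  · exact L38_chk
  · exact L39_chk
  · exact L40_chk
  · exact L41_chk
  · exact L42_chk
  · exact L43_chk
  · exact L44_chk
  · exact L45_chk
  · exact L46_chk

/-- all entries -/
def tab : List Ent := blocks.flatten

theorem tab_chk : ∀ e ∈ tab, e.chk = true := by
  intro e he
  obtain ⟨l, hl, he⟩ := List.mem_flatten.1 he
  exact chkAll_spec (blocks_chk l hl) e he

theorem tab_nodup : (tab.map fun e => (e.m1, e.m2, e.m3, e.m4, e.m6)).Nodup := by decide +kernel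

theorem tab_length : tab.length = 79 := by decide +kernel

end Cfsg.Agent.H853.FiK.Fi23
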