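import Cfsg.Agent.H853.FiK.Cls
import Cfsg.Agent.H853.FiK.Fi23Tab

/-!
# `Fi₂₃` has at least 79 conjugacy classes (helper853)
-/

set_option autoImplicit false

namespace Cfsg.Agent.H853.FiK.Fi23

open Cfsg Cfsg.Agent.Lib.PermNet Cfsg.Agent.SporRec.Fi23Perm Cfsg.Agent.SporRec.Fi23Rel Cfsg.Agent.H853.FiK

theorem map_ev {G H : Type*} [Group G] [Group H] (f : G →* H) (x : Gen → G) (w : List Gen) :
    f (ev x w) = ev (fun t => f (x t)) w := by
  unfold ev
  rw [map_list_prod, List.map_map]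
  rfl

theorem φ_ev (w : List Gen) : φ (ev gen w) = ev pm w := by
  rw [map_ev]
  congr 1

theorem inv5_ent {e : Ent} (he : e ∈ tab) : inv5 φ (ev gen e.w) = (e.m1, e.m2, e.m3, e.m4, e.m6) := by
  obtain ⟨h1, h2, h3, h4, h6⟩ := chk5_spec (wok e.w) (tab_chk e he)
  rw [wperm_map] at h1 h2 h3 h4 h6
  unfold inv5
  rw [φ_ev, h1, h2, h3, h4, h6]

/-- **`k(Fi₂₃) ≥ 79`** -/
theorem card_conjClasses_fi23 {K : Type*} [Group K] [Finite K] (h : Spor.IsoFi23 K) :
    79 ≤ Nat.card (ConjClasses K) := by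
  obtain ⟨e⟩ := h
  have hl : (tab.map fun e => (e.m1, e.m2, e.m3, e.m4, e.m6)).length = 79 := by
    rw [List.length_map, tab_length]
  rw [← hl]
  refine card_le_of_nodup (f := fun x : K => inv5 φ (e x)) ?_ tab_nodup ?_
  · intro x y hxy
    exact inv5_conj φ (e.toMonoidHom.map_isConj hxy)
  · intro b hb
    obtain ⟨t, ht, rfl⟩ := List.mem_map.1 hb
    refine ⟨e.symm (ev gen t.w), ?_⟩
    show inv5 φ (e (e.symm _)) = _
    rw [e.apply_symm_apply]
    exact inv5_ent ht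

end Cfsg.Agent.H853.FiK.Fi23
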